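import Cfsg.Agent.H586.NX.Defs
import Cfsg.Agent.H662.GW.Defs
import Cfsg.Agent.H229.RIM.Defs

/-!
# S4816, layer (BP): the interface between the structural half and the numerical half (helper263)

`SP0 p s n f X B` : `H20.NX.SB` with `q = p`, without the irreducibility of `U`; `SP` : with it.
`LP p s n f L Z π a B` : the module `W` (`H586.NX.LB` with `q = p`) of order `(p ^ f) ^ (s ^ n)`, with the rule for `s`-th powers.
-/

set_option autoImplicit false

open Cfsg
open scoped commutatorElement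

namespace Cfsg.Agent.H263.RIM

open Cfsg.Agent.H662.GW

/-- The numerical situation of layer (B) in characteristic `p`, without irreducibility. -/
structure SP0 (p s n f : ℕ) {Y U : Type*} [Group Y] [Finite Y] [AddCommGroup U] [Finite U]
    [DistribMulAction Y U] (X : Subgroup Y) (B : U → U → ZMod s) : Prop where
  hp : p.Prime
  hs : s.Prime
  odd : p ≠ 2
  hps : p ≠ s
  hn : 1 ≤ n
  perf : commutator Y = ⊤
  nX : X.Normal
  Xt : X ≠ ⊤
  maxX : ∀ M : Subgroup Y, M.Normal → M ≠ ⊤ → M ≤ X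
  simp : IsSimpleGroup (Y ⧸ X)
  na : ¬ IsMulCommutative (Y ⧸ X)
  cop : ¬ p ∣ Nat.card X
  pY : p ∣ Nat.card (Y ⧸ X)
  faith : ∀ y : Y, (∀ u : U, y • u = u) → y = 1
  exp : ∀ u : U, s • u = 0
  card : Nat.card U = s ^ (2 * n)
  addl : ∀ u v w : U, B (u + v) w = B u w + B v w
  addr : ∀ u v w : U, B u (v + w) = B u v + B u w
  alt : ∀ u : U, B u u = 0
  nd : ∀ u : U, (∀ v : U, B u v = 0) → u = 0
  inv : ∀ (y : Y) (u v : U), B (y • u) (y • v) = B u v
  hf : 1 ≤ f
  hsf : s ∣ p ^ f - 1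
  ineq : ∀ y : Y, orderOf y = p → ∀ j ≤ n, Nat.card {u : U // y • u = u} = s ^ (2 * (n - j)) →
    Ineq p s n j (p ^ f) (Subgroup.centralizer ({y} : Set Y)).index

/-- The numerical situation of layer (B) in characteristic `p`. -/
structure SP (p s n f : ℕ) {Y U : Type*} [Group Y] [Finite Y] [AddCommGroup U] [Finite U]
    [DistribMulAction Y U] (X : Subgroup Y) (B : U → U → ZMod s) : Prop extends SP0 p s n f X B where
  irr : ∀ W : AddSubgroup U, (∀ y : Y, ∀ w ∈ W, y • w ∈ W) → W = ⊥ ∨ W = ⊤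

/-- The module `W`. -/
structure LP (p s n f : ℕ) {G W Y U : Type*} [Group G] [Finite G] [AddCommGroup W] [Finite W]
    [DistribMulAction G W] [Group Y] [Finite Y] [AddCommGroup U] [Finite U] [DistribMulAction Y U]
    (L Z : Subgroup G) (π : G →* Y) (a : L →* Multiplicative U) (B : U → U → ZMod s) : Prop where
  lb : Cfsg.Agent.H586.NX.LB (W := W) p p s n L Z π a B
  card : Nat.card W = (p ^ f) ^ (s ^ n)
  sq : ∀ (y : Y) (l l' : L), Multiplicative.toAdd (a l') = y • Multiplicative.toAdd (a l) →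
    ∃ z ∈ Z, ∀ w : W, ((l' : G) ^ s) • w = (z ^ s) • ((l : G) ^ s) • w

end Cfsg.Agent.H263.RIM
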